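import Cfsg.Agent.H3.Ore.Fi22Three
import Cfsg.Agent.H834.ZInst
import Cfsg.Agent.H836.Facts

/-!
# `Fi22`: elements whose 3-part has order 9 are commutators (helper3)

`Model.isC_nine` : `t` a 2-element commuting with `y`, an element of 3-power order with `y ^ 3 ≠ 1`: `t * y` is a commutator.
The involutions commuting with `y` are the fixed transpositions of `y` and the products of two of them; no element of
order 4 commutes with `y`.
-/

set_option autoImplicit false
set_option maxRecDepth 100000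
set_option exponentiation.threshold 5000
set_option linter.style.longLine false
set_option linter.constructorNameAsVariable false

namespace Cfsg.Agent.H3.Ore.FN

open Cfsg.Spor Cfsg.Spor.Fi22 Cfsg.Agent.Lib.PermNet Cfsg.Agent.Lib.PermNetOrbit Cfsg.Agent.Lib.PermNetFix
open Cfsg.Agent.Fischer Cfsg.Agent.Fischer.Fi22PtsRep
open Cfsg.Agent.H834 Cfsg.Agent.H834.AC Cfsg.Agent.H834.RC Cfsg.Agent.H834.ZC
open Cfsg.Agent.H3.Ore.FC Cfsg.Agent.H3.Ore.FR

/-- an element of order dividing 9 acting on at most six points: its cube acts trivially -/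
theorem cube_comm {G : Type*} [Group G] {y : G} (h9 : y ^ 9 = 1) {S : Set G} (hfin : S.Finite)
    (hS : ∀ s ∈ S, y * s * y⁻¹ ∈ S) (h6 : S.ncard ≤ 6) {s : G} (hs : s ∈ S) : Commute (y ^ 3) s := by
  classical
  have hpow : ∀ i : ℕ, y ^ i * s * (y ^ i)⁻¹ ∈ S := by
    intro i
    induction i with
    | zero => simpa using hs
    | succ i ih =>
      have := hS _ ih
      have e : y ^ (i + 1) * s * (y ^ (i + 1))⁻¹ = y * (y ^ i * s * (y ^ i)⁻¹) * y⁻¹ := by
        rw [pow_succ']; group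
      rw [e]; exact this
  have key : ∀ i j : ℕ, i < j → j ≤ 6 → y ^ i * s * (y ^ i)⁻¹ = y ^ j * s * (y ^ j)⁻¹ → Commute (y ^ 3) s := by
    intro i j hij hj h
    obtain ⟨d, rfl⟩ : ∃ d, j = i + d := ⟨j - i, by omega⟩
    have hd : Commute (y ^ d) s := by
      rw [pow_add] at h
      have h1 : s = y ^ d * s * (y ^ d)⁻¹ := by
        calc s = (y ^ i)⁻¹ * (y ^ i * s * (y ^ i)⁻¹) * y ^ i := by group
          _ = (y ^ i)⁻¹ * (y ^ i * y ^ d * s * (y ^ i * y ^ d)⁻¹) * y ^ i := by rw [h]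
          _ = _ := by group
      exact (mul_inv_eq_iff_eq_mul.1 h1.symm)
    have fin : ∀ e k : ℕ, d * e = 3 + 9 * k → Commute (y ^ 3) s := by
      intro e k he
      have h2 : (y ^ d) ^ e = y ^ 3 := by
        rw [← pow_mul, he, pow_add, pow_mul, h9, one_pow, mul_one]
      rw [← h2]
      exact hd.pow_left e
    have hd1 : 1 ≤ d := by omega
    have hd6 : d ≤ 6 := by omega
    interval_cases d
    · exact fin 3 0 rfl
    · exact fin 6 1 rfl
    · exact fin 1 0 rfl
    · exact fin 3 1 rfl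
    · exact fin 6 3 rfl
    · exact fin 2 1 rfl
  obtain ⟨i, hi, j, hj, hij, h⟩ := Finset.exists_ne_map_eq_of_card_lt_of_maps_to (s := Finset.range 7)
    (t := hfin.toFinset) (by rw [← Set.ncard_eq_toFinset_card S hfin, Finset.card_range]; omega)
    (f := fun i => y ^ i * s * (y ^ i)⁻¹) (fun i _ => by
      rw [Finset.mem_coe, Set.Finite.mem_toFinset]
      exact hpow i)
  rw [Finset.mem_range] at hi hj
  rcases lt_or_gt_of_ne hij with h1 | h1
  · exact key i j h1 (by omega) h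
  · exact key j i h1 (by omega) h.symm

/-- the image of a point under a transposition -/
noncomputable def tp (n q : ℕ) : ℕ := ptWord (nw (tw (cw n))) q

theorem chkNC : ((List.range 27).all fun n => (List.range 27).all fun k => or (Nat.beq n k)
    (or (not (Nat.beq (n / 9) (k / 9))) (not (Nat.beq (tp n (pt k)) (pt k))))) = true := by decide +kernel

/-- the fixed points of `yA` -/
def FA : List ℕ := [2, 5, 8, 18, 21, 24]

/-- the fixed points of `yB` -/
def FB : List ℕ := [0, 3, 6]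

theorem chkA : Nat.beq (fixm wyA) (msk (FA.map pt)) = true := by decide +kernel
theorem chkB : Nat.beq (fixm wyB) (msk (FB.map pt)) = true := by decide +kernel
theorem chkE : Nat.beq (fixm (wyE ++ (wyE ++ wyE))) 0 = true := by decide +kernel
theorem chkA3 : eqB (wyA ++ (wyA ++ wyA)) zw = true := by decide +kernel
theorem chkB3 : eqB (wyB ++ (wyB ++ wyB)) zw = true := by decide +kernel
theorem cub_zw : cub zw = true := by decide +kernel
theorem chkE9 : cub (wyE ++ (wyE ++ wyE)) = true := by decide +kernel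

/-- the conditions on the list of fixed points -/
noncomputable def chkF (F : List ℕ) : Bool :=
  F.all fun n => F.all fun k => or (Nat.beq n k) (or (not (Nat.beq (tp n (pt k)) (pt k)))
    (and (F.all fun r => and (not (Nat.beq (tp r (pt n)) (pt k))) (F.all fun s => not (Nat.beq (tp r (tp s (pt n))) (pt k))))
      (F.any fun l => and (not (Nat.beq (tp n (pt l)) (pt l))) (and (Nat.beq (tp k (pt l)) (pt l))
        (F.all fun x => or (Nat.beq (tp n (pt x)) (pt x)) (or (Nat.beq x l) (Nat.beq (pt x) (tp n (pt l)))))))))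

theorem chkFA : chkF FA = true := by decide +kernel
theorem chkFB' : chkF FB = true := by decide +kernel

theorem nbeq {a b : ℕ} (h : (!Nat.beq a b) = true) : a ≠ b := by
  rw [Bool.not_eq_true'] at h
  exact Nat.ne_of_beq_eq_false h

theorem chkF_spec {F : List ℕ} (h : chkF F = true) {n k : ℕ} (hn : n ∈ F) (hk : k ∈ F) (hnk : n ≠ k)
    (hc : tp n (pt k) = pt k) : (∀ r ∈ F, tp r (pt n) ≠ pt k ∧ ∀ s ∈ F, tp r (tp s (pt n)) ≠ pt k) ∧
      ∃ l ∈ F, tp n (pt l) ≠ pt l ∧ tp k (pt l) = pt l ∧ ∀ x ∈ F, tp n (pt x) = pt x ∨ x = l ∨ pt x = tp n (pt l) := by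
  unfold chkF at h
  rw [List.all_eq_true] at h
  have h1 := h n hn
  rw [List.all_eq_true] at h1
  have h2 := h1 k hk
  rw [Bool.or_eq_true, Bool.or_eq_true] at h2
  rcases h2 with h2 | h2 | h2
  · exact absurd (Nat.eq_of_beq_eq_true h2) hnk
  · exact absurd hc (nbeq h2)
  · rw [Bool.and_eq_true] at h2
    obtain ⟨h3, h4⟩ := h2
    constructor
    · intro r hr
      rw [List.all_eq_true] at h3
      have h5 := h3 r hr
      rw [Bool.and_eq_true] at h5
      refine ⟨nbeq h5.1, fun s hs => ?_⟩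
      have h6 := h5.2
      rw [List.all_eq_true] at h6
      exact nbeq (h6 s hs)
    · rw [List.any_eq_true] at h4
      obtain ⟨l, hl, h5⟩ := h4
      rw [Bool.and_eq_true, Bool.and_eq_true] at h5
      refine ⟨l, hl, nbeq h5.1, Nat.eq_of_beq_eq_true h5.2.1, fun x hx => ?_⟩
      have h6 := h5.2.2
      rw [List.all_eq_true] at h6
      have h7 := h6 x hx
      rw [Bool.or_eq_true, Bool.or_eq_true] at h7
      rcases h7 with h7 | h7 | h7
      · exact Or.inl (Nat.eq_of_beq_eq_true h7)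
      · exact Or.inr (Or.inl (Nat.eq_of_beq_eq_true h7))
      · exact Or.inr (Or.inr (Nat.eq_of_beq_eq_true h7))

end Cfsg.Agent.H3.Ore.FN

namespace Cfsg.Agent.H834.Model

open Cfsg.Spor Cfsg.Spor.Fi22 Cfsg.Agent.Lib.PermNet Cfsg.Agent.Lib.PermNetOrbit Cfsg.Agent.Lib.PermNetFix
open Cfsg.Agent.Fischer Cfsg.Agent.Fischer.Fi22PtsRep
open Cfsg.Agent.H834 Cfsg.Agent.H834.AC Cfsg.Agent.H834.RC Cfsg.Agent.H834.ZC
open Cfsg.Agent.H3.Ore.FC Cfsg.Agent.H3.Ore.FR Cfsg.Agent.H3.Ore.FN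
open Cfsg.Agent.H777.Ore (IsC)
open Cfsg.Agent.H836 Cfsg.Agent.R01.FiFusion Cfsg.Agent.R01.FiFacts

variable {G : Type*} [Group G] {D : Set G} (m : Model G D)

theorem φ_t_tp {n : ℕ} (hn : n < 27) (q : ℕ) : m.φ (m.t (pt n)) q = tp n q := m.φ_t_pt hn q

/-- different commuting transpositions fixed by `z` lie in different blocks -/
theorem block {n k : ℕ} (hn : n < 27) (hk : k < 27) (hc : tp n (pt k) = pt k) (hb : n / 9 = k / 9) : n = k := by
  have h := chkNC
  rw [List.all_eq_true] at h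
  have h1 := h n (List.mem_range.2 hn)
  rw [List.all_eq_true] at h1
  have h2 := h1 k (List.mem_range.2 hk)
  rw [Bool.or_eq_true, Bool.or_eq_true] at h2
  rcases h2 with h2 | h2 | h2
  · exact Nat.eq_of_beq_eq_true h2
  · exact absurd hb (nbeq h2)
  · exact absurd hc (nbeq h2)

theorem exists_n {x : G} (hx : x ∈ D) (hz : m.wd zw * x = x * m.wd zw) : ∃ n < 27, x = m.t (pt n) := by
  obtain ⟨p, hp, rfl⟩ := m.mem_iff.1 hx
  rw [m.comm_iff _ hp, m.fixz hp] at hz
  have hx : ∀ p ∈ pl, ∃ n < 27, pt n = p := by decide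
  obtain ⟨n, hn, h⟩ := hx p hz
  exact ⟨n, hn, by rw [h]⟩

/-- no four mutually commuting transpositions commute with `z` -/
theorem no_four {a b c d : G} (ha : a ∈ D) (hb : b ∈ D) (hc : c ∈ D) (hd : d ∈ D)
    (za : m.wd zw * a = a * m.wd zw) (zb : m.wd zw * b = b * m.wd zw) (zc : m.wd zw * c = c * m.wd zw)
    (zd : m.wd zw * d = d * m.wd zw) (ab : a ≠ b) (ac : a ≠ c) (ad : a ≠ d) (bc : b ≠ c) (bd : b ≠ d) (cd : c ≠ d)
    (cab : a * b = b * a) (cac : a * c = c * a) (cad : a * d = d * a) (cbc : b * c = c * b) (cbd : b * d = d * b)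
    (ccd : c * d = d * c) : False := by
  obtain ⟨n1, h1, rfl⟩ := m.exists_n ha za
  obtain ⟨n2, h2, rfl⟩ := m.exists_n hb zb
  obtain ⟨n3, h3, rfl⟩ := m.exists_n hc zc
  obtain ⟨n4, h4, rfl⟩ := m.exists_n hd zd
  have key : ∀ {n k : ℕ}, n < 27 → k < 27 → m.t (pt n) ≠ m.t (pt k) → m.t (pt n) * m.t (pt k) = m.t (pt k) * m.t (pt n) →
      n / 9 ≠ k / 9 := by
    intro n k hn hk hne hc hb
    apply hne
    rw [block hn hk ?_ hb]
    rw [← m.φ_t_tp hn, m.fix_iff (m.pt_lt hk)]
    exact hc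
  have k12 := key h1 h2 ab cab
  have k13 := key h1 h3 ac cac
  have k14 := key h1 h4 ad cad
  have k23 := key h2 h3 bc cbc
  have k24 := key h2 h4 bd cbd
  have k34 := key h3 h4 cd ccd
  omega

theorem comm_swap {x y : G} (h : x * y = y * x) : Commute x y := h

include m in
/-- the cube of an element of order 9 commuting with `a b c` commutes with the whole hexad -/
theorem cube_hex (I : Inv G D) {y : G} (h9 : y ^ 9 = 1) {a b c : G} (ht : Tri D a b c)
    (h : y * (a * b * c) = a * b * c * y) : Commute (y ^ 3) a ∧ Commute (y ^ 3) b ∧ Commute (y ^ 3) c ∧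
      ∃ d ∈ D, a ≠ d ∧ b ≠ d ∧ c ≠ d ∧ a * d = d * a ∧ b * d = d * b ∧ c * d = d * c ∧ Commute (y ^ 3) d := by
  have hfin := m.finite
  obtain ⟨a', b', c', H⟩ := I.facts.hex a b c ht
  let S : Set G := {t | ∃ u w, Tri D t u w ∧ t * u * w = a * b * c}
  have hS : ∀ s ∈ S, y * s * y⁻¹ ∈ S := by
    rintro t ⟨u, w, h1, h2⟩
    refine ⟨y * u * y⁻¹, y * w * y⁻¹, ⟨I.ctx.conj t h1.mx y, I.ctx.conj u h1.my y, I.ctx.conj w h1.mw y, ?_, ?_, ?_,
      (Cfsg.Agent.LThreeFi22.conj_comm_iff y t u).2 h1.cxy, (Cfsg.Agent.LThreeFi22.conj_comm_iff y t w).2 h1.cxw,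
      (Cfsg.Agent.LThreeFi22.conj_comm_iff y u w).2 h1.cyw⟩, ?_⟩
    · exact fun e => h1.xy (mul_left_cancel (mul_right_cancel e))
    · exact fun e => h1.xw (mul_left_cancel (mul_right_cancel e))
    · exact fun e => h1.yw (mul_left_cancel (mul_right_cancel e))
    · calc y * t * y⁻¹ * (y * u * y⁻¹) * (y * w * y⁻¹) = y * (t * u * w) * y⁻¹ := by group
        _ = a * b * c * y * y⁻¹ := by rw [h2, h]
        _ = a * b * c := by group
  have h6 : S.ncard ≤ 6 := by
    classical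
    let F : Finset G := {a, b, c, a', b', c'}
    have hsub : S ⊆ (F : Set G) := by
      rintro t ⟨u, w, h1, h2⟩
      have := I.mem_hex H h1 h2
      simpa [F] using this
    calc S.ncard ≤ (F : Set G).ncard := Set.ncard_le_ncard hsub
      _ = F.card := Set.ncard_coe_finset F
      _ ≤ 6 := Finset.card_le_six
  have key : ∀ s ∈ S, Commute (y ^ 3) s := fun s hs => cube_comm h9 (Set.toFinite S) hS h6 hs
  refine ⟨key a ⟨b, c, ht, rfl⟩,
    key b ⟨a, c, ⟨ht.my, ht.mx, ht.mw, ht.xy.symm, ht.yw, ht.xw, ht.cxy.symm, ht.cyw, ht.cxw⟩, ?_⟩,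
    key c ⟨a, b, ⟨ht.mw, ht.mx, ht.my, ht.xw.symm, ht.yw.symm, ht.xy, ht.cxw.symm, ht.cyw.symm, ht.cxy⟩, ?_⟩,
    a', H.t'.mx, H.aa, H.ba, H.ca, H.caa, H.cba, H.cca, key a' ⟨b', c', H.t', ?_⟩⟩
  · rw [ht.cxy]
  · calc c * a * b = (a * c) * b := by rw [ht.cxw]
      _ = a * (b * c) := by rw [mul_assoc, ← ht.cyw]
      _ = a * b * c := by group
  · have hp := H.prod
    have haa := I.ctx.sq a ht.mx
    have hbb := I.ctx.sq b ht.my
    have hcc := I.ctx.sq c ht.mw
    have h2 : a * b * c * (a * b * c) = 1 := by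
      calc a * b * c * (a * b * c) = a * b * (c * a) * b * c := by group
        _ = a * b * (a * c) * b * c := by rw [← ht.cxw]
        _ = a * (b * a) * c * b * c := by group
        _ = a * (a * b) * c * b * c := by rw [← ht.cxy]
        _ = (a * a) * b * (c * b) * c := by group
        _ = (a * a) * b * (b * c) * c := by rw [← ht.cyw]
        _ = (a * a) * (b * b) * (c * c) := by group
        _ = 1 := by rw [haa, hbb, hcc, one_mul, one_mul]
    exact mul_left_cancel (hp.trans h2.symm)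

/-- the involutions commuting with `y` are products of fixed transpositions -/
theorem invol (I : Inv G D) {y : G} (h9 : y ^ 9 = 1)
    (htri : ∀ a b c : G, Tri D a b c → y * (a * b * c) = a * b * c * y → False) {i : G} (hi : i * i = 1)
    (hc : y * i = i * y) : i = 1 ∨ (∃ p < 3510, m.φ y p = p ∧ i = m.t p) ∨
      ∃ p < 3510, ∃ q < 3510, m.φ y p = p ∧ m.φ y q = q ∧ p ≠ q ∧ m.t p * m.t q = m.t q * m.t p ∧ i = m.t p * m.t q := by
  rcases I.inv i hi with h | h | ⟨a, ha, b, hb, hab, cab, rfl⟩ | ⟨a, b, c, ht, rfl⟩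
  · exact Or.inl h
  · obtain ⟨p, hp, rfl⟩ := m.mem_iff.1 h
    exact Or.inr (Or.inl ⟨p, hp, (m.comm_iff _ hp).1 hc, rfl⟩)
  · obtain ⟨p, hp, rfl⟩ := m.mem_iff.1 ha
    obtain ⟨q, hq, rfl⟩ := m.mem_iff.1 hb
    right; right
    refine ⟨p, hp, q, hq, ?_⟩
    have key : y * m.t p = m.t p * y ∧ y * m.t q = m.t q * y := by
      rcases I.ctx.cz _ ha _ hb hab cab y hc with h | ⟨h1, h2⟩
      · exact h
      · exfalso
        have h3 : Commute (y ^ 2) (m.t p) := by
          have : y ^ 2 * m.t p * (y ^ 2)⁻¹ = m.t p := by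
            calc y ^ 2 * m.t p * (y ^ 2)⁻¹ = y * (y * m.t p * y⁻¹) * y⁻¹ := by rw [pow_two]; group
              _ = m.t p := by rw [h1, h2]
          exact mul_inv_eq_iff_eq_mul.1 this
        have h4 : y = (y ^ 2) ^ 5 := by
          rw [← pow_mul, show 2 * 5 = 9 + 1 by norm_num, pow_add, h9, one_mul, pow_one]
        have h5 : Commute y (m.t p) := by
          rw [h4]; exact h3.pow_left 5
        apply hab
        rw [← h1, h5.eq, mul_inv_cancel_right]
    exact ⟨(m.comm_iff _ hp).1 key.1, (m.comm_iff _ hq).1 key.2, fun e => hab (by rw [e]), cab, rfl⟩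
  · exact (htri a b c ht hc).elim

include m in
theorem pt_lt' (n : ℕ) : pt n < 3510 := by
  rw [← twp_cw n]
  exact m.twp_lt _

/-- **no element of order 4 commutes with `y`** -/
theorem no_order_four (I : Inv G D) {y : G} (h9 : y ^ 9 = 1)
    (htri : ∀ a b c : G, Tri D a b c → y * (a * b * c) = a * b * c * y → False) {F : List ℕ} (hF27 : ∀ n ∈ F, n < 27)
    (hF : chkF F = true) (hfix : ∀ p < 3510, m.φ y p = p → ∃ n ∈ F, p = pt n) (hfix' : ∀ n ∈ F, m.φ y (pt n) = pt n)
    {u : G} (hu : y * u = u * y) (h4 : (u * u) * (u * u) = 1) (h2 : u * u ≠ 1) : False := by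
  have hyi : y * (u * u) = (u * u) * y := by
    have hc : Commute y u := hu
    exact (hc.mul_right hc).eq
  have hmap : ∀ {v : G}, y * v = v * y → ∀ n ∈ F, ∃ k ∈ F, m.φ v (pt n) = pt k := by
    intro v hv n hn
    obtain ⟨k, hk, h⟩ := hfix (m.φ v (pt n)) (m.φ_lt _ (m.pt_lt' n)) (by
      have h1 := congrArg (fun g => m.φ g (pt n)) hv
      simp only [map_mul, Equiv.Perm.mul_apply, hfix' n hn] at h1
      exact h1)
    exact ⟨k, hk, h⟩
  rcases m.invol I h9 htri h4 hyi with h | ⟨p, hp, -, h⟩ | ⟨p, hp, q, hq, hyp, hyq, hpq, cpq, h⟩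
  · exact h2 h
  · exact I.nsq _ (m.t_mem hp) u h
  · obtain ⟨n, hn, rfl⟩ := hfix p hp hyp
    obtain ⟨k, hk, rfl⟩ := hfix q hq hyq
    have hn27 := hF27 n hn
    have hk27 := hF27 k hk
    have hnk : n ≠ k := fun e => hpq (by rw [e])
    have hcn : tp n (pt k) = pt k := by
      rw [← m.φ_t_tp hn27, m.fix_iff hq]
      exact cpq
    obtain ⟨hr, l, hl, l1, l2, l3⟩ := chkF_spec hF hn hk hnk hcn
    have hui : u * (m.t (pt n) * m.t (pt k)) = m.t (pt n) * m.t (pt k) * u := by
      rw [← h]; group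
    have htne : m.t (pt n) ≠ m.t (pt k) := fun e => hpq (m.t_inj hp hq e)
    rcases I.ctx.cz _ (m.t_mem hp) _ (m.t_mem hq) htne cpq u hui with ⟨e1, e2⟩ | ⟨e1, e2⟩
    · -- `u` fixes both
      obtain ⟨x, hx, hux⟩ := hmap hu l hl
      have h5 : m.φ u (m.φ u (pt l)) = tp n (pt l) := by
        have h6 := congrArg (fun g => m.φ g (pt l)) h
        simp only [map_mul, Equiv.Perm.mul_apply] at h6
        rw [h6, m.φ_t_tp hk27, l2, m.φ_t_tp hn27]
      have h7 : m.φ u (tp n (pt l)) = tp n (m.φ u (pt l)) := by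
        have h8 := congrArg (fun g => m.φ g (pt l)) e1
        simp only [map_mul, Equiv.Perm.mul_apply, m.φ_t_tp hn27] at h8
        exact h8
      rcases l3 x hx with h8 | h8 | h8
      · -- the image commutes with `t p`
        apply l1
        apply (m.φ u).injective
        rw [h7, hux, h8]
      · rw [hux, h8, hux, h8] at h5
        exact l1 h5.symm
      · rw [hux, h8] at h5
        apply l1
        apply (m.φ u).injective
        rw [h5, hux, h8]
    · -- `u` interchanges them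
      have hp2 := m.t_sq hp
      have hq2 := m.t_sq hq
      have e3 : u * m.t (pt k) = m.t (pt n) * u := by
        rw [← e2]; group
      have hs2 : (u * m.t (pt n)) * (u * m.t (pt n)) = 1 := by
        have e4 : m.t (pt n) * u = u * m.t (pt k) := e3.symm
        calc (u * m.t (pt n)) * (u * m.t (pt n)) = u * (m.t (pt n) * u) * m.t (pt n) := by group
          _ = (u * u) * (m.t (pt k) * m.t (pt n)) := by rw [e4]; group
          _ = (m.t (pt n) * m.t (pt k)) * (m.t (pt k) * m.t (pt n)) := by rw [h]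
          _ = m.t (pt n) * (m.t (pt k) * m.t (pt k)) * m.t (pt n) := by group
          _ = 1 := by rw [hq2, mul_one, hp2]
      have hys : y * (u * m.t (pt n)) = (u * m.t (pt n)) * y := by
        have e5 : y * m.t (pt n) = m.t (pt n) * y := (m.comm_iff _ hp).2 hyp
        calc y * (u * m.t (pt n)) = (y * u) * m.t (pt n) := by group
          _ = u * (y * m.t (pt n)) := by rw [hu]; group
          _ = _ := by rw [e5]; group
      have hsn : m.φ (u * m.t (pt n)) (pt n) = pt k := by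
        apply m.t_inj (m.φ_lt _ hp) hq
        rw [← m.conj_t _ hp, ← e1]
        calc u * m.t (pt n) * m.t (pt n) * (u * m.t (pt n))⁻¹ = u * m.t (pt n) * u⁻¹ := by group
          _ = _ := rfl
      rcases m.invol I h9 htri hs2 hys with h5 | ⟨r, hr1, hyr, h5⟩ | ⟨r, hr1, s, hs1, hyr, hys', -, -, h5⟩
      · apply hpq
        rw [h5, map_one, Equiv.Perm.one_apply] at hsn
        exact hsn
      · obtain ⟨r', hr', rfl⟩ := hfix r hr1 hyr
        rw [h5, m.φ_t_tp (hF27 _ hr')] at hsn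
        exact (hr r' hr').1 hsn
      · obtain ⟨r', hr', rfl⟩ := hfix r hr1 hyr
        obtain ⟨s', hs', rfl⟩ := hfix s hs1 hys'
        rw [h5, map_mul, Equiv.Perm.mul_apply, m.φ_t_tp (hF27 _ hs'), m.φ_t_tp (hF27 _ hr')] at hsn
        exact (hr r' hr').2 s' hs' hsn

/-- **the 2-elements commuting with `y`** -/
theorem two_part (I : Inv G D) {y : G} (h9 : y ^ 9 = 1)
    (htri : ∀ a b c : G, Tri D a b c → y * (a * b * c) = a * b * c * y → False) {F : List ℕ} (hF27 : ∀ n ∈ F, n < 27)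
    (hF : chkF F = true) (hfix : ∀ p < 3510, m.φ y p = p → ∃ n ∈ F, p = pt n) (hfix' : ∀ n ∈ F, m.φ y (pt n) = pt n)
    {t : G} {e : ℕ} (ht : t ^ 2 ^ e = 1) (hty : y * t = t * y) : t = 1 ∨ (∃ n ∈ F, t = m.t (pt n)) ∨
      ∃ n ∈ F, ∃ k ∈ F, n ≠ k ∧ m.t (pt n) * m.t (pt k) = m.t (pt k) * m.t (pt n) ∧ t = m.t (pt n) * m.t (pt k) := by
  have h2 : t * t = 1 := by
    by_contra hne
    have hyc : ∀ j : ℕ, y * t ^ j = t ^ j * y := fun j => by
      have : Commute y t := hty
      exact (this.pow_right j).eq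
    -- the largest exponent
    classical
    have hex : ∃ j, t ^ 2 ^ j = 1 := ⟨e, ht⟩
    obtain ⟨j, hj⟩ : ∃ j, j = Nat.find hex := ⟨_, rfl⟩
    have hj1 : t ^ 2 ^ j = 1 := by rw [hj]; exact Nat.find_spec hex
    have hj2 : 2 ≤ j := by
      by_contra hlt
      have : j = 0 ∨ j = 1 := by omega
      rcases this with h | h
      · rw [h, pow_zero, pow_one] at hj1
        apply hne; rw [hj1, one_mul]
      · rw [h, pow_one, pow_two] at hj1
        exact hne hj1
    obtain ⟨i, rfl⟩ : ∃ i, j = i + 2 := ⟨j - 2, by omega⟩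
    have hi : t ^ 2 ^ (i + 1) ≠ 1 := by
      have := Nat.find_min hex (m := i + 1) (by omega)
      exact this
    have e1 : t ^ 2 ^ i * t ^ 2 ^ i = t ^ 2 ^ (i + 1) := by rw [← pow_add]; congr 1; ring
    refine m.no_order_four I h9 htri hF27 hF hfix hfix' (u := t ^ 2 ^ i) (hyc _) ?_ ?_
    · rw [e1, ← pow_add, ← hj1]; congr 1; ring
    · rw [e1]; exact hi
  rcases m.invol I h9 htri h2 hty with h | ⟨p, hp, hyp, h⟩ | ⟨p, hp, q, hq, hyp, hyq, hpq, cpq, h⟩
  · exact Or.inl h
  · obtain ⟨n, hn, rfl⟩ := hfix p hp hyp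
    exact Or.inr (Or.inl ⟨n, hn, h⟩)
  · obtain ⟨n, hn, rfl⟩ := hfix p hp hyp
    obtain ⟨k, hk, rfl⟩ := hfix q hq hyq
    exact Or.inr (Or.inr ⟨n, hn, k, hk, fun e => hpq (by rw [e]), cpq, h⟩)

theorem no_tri (I : Inv G D) {w : List Gen} (hw : m.wd w ^ 9 = 1) (h3 : m.wd w ^ 3 = m.wd zw) {a b c : G}
    (ht : Tri D a b c) (h : m.wd w * (a * b * c) = a * b * c * m.wd w) : False := by
  obtain ⟨ca, cb, cc, d, hd, had, hbd, hcd, cad, cbd, ccd, cd⟩ := m.cube_hex I hw ht h
  rw [h3] at ca cb cc cd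
  exact m.no_four ht.mx ht.my ht.mw hd ca.eq cb.eq cc.eq cd.eq ht.xy ht.xw had ht.yw hbd hcd ht.cxy ht.cxw cad ht.cyw cbd ccd

theorem fix_of_msk {w : List Gen} {F : List ℕ} (h : Nat.beq (fixm w) (msk (F.map pt)) = true) :
    (∀ p < 3510, m.φ (m.wd w) p = p → ∃ n ∈ F, p = pt n) ∧ ∀ n ∈ F, m.φ (m.wd w) (pt n) = pt n := by
  have h1 := Nat.eq_of_beq_eq_true h
  have key : ∀ p < 3510, m.φ (m.wd w) p = p ↔ p ∈ F.map pt := by
    intro p hp
    rw [← m.testBit_fixm hp, h1, testBit_msk]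
  refine ⟨fun p hp hf => ?_, fun n hn => (key _ (m.pt_lt' n)).2 (List.mem_map_of_mem hn)⟩
  obtain ⟨n, hn, h2⟩ := List.mem_map.1 ((key p hp).1 hf)
  exact ⟨n, hn, h2.symm⟩

theorem cube_wd {w v : List Gen} (h : eqB (w ++ (w ++ w)) v = true) : m.wd w ^ 3 = m.wd v := by
  have h1 := m.eq_of_eqB h
  rw [wd_append, wd_append] at h1
  rw [pow_succ, pow_two, mul_assoc, h1]

theorem isC_tw {n : ℕ} (hn : n < 27) {w v : List Gen} (h : tw (cw n) ++ w = v) (hv : IsC (m.wd v)) :
    IsC (m.t (pt n) * m.wd w) := by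
  rw [m.t_pt hn, ← wd_append, h]
  exact hv

theorem isC_tw2 {n k : ℕ} (hn : n < 27) (hk : k < 27) {w v : List Gen} (h : tw (cw n) ++ (tw (cw k) ++ w) = v)
    (hv : IsC (m.wd v)) : IsC (m.t (pt n) * m.t (pt k) * m.wd w) := by
  rw [m.t_pt hn, m.t_pt hk, mul_assoc, ← wd_append, ← wd_append, h]
  exact hv

theorem isC_A (I : Inv G D) {t : G} {e : ℕ} (ht : t ^ 2 ^ e = 1) (hc : m.wd wyA * t = t * m.wd wyA) :
    IsC (t * m.wd wyA) := by
  have e3 := m.cube_wd chkA3
  have e9 : m.wd wyA ^ 9 = 1 := by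
    rw [show (9 : ℕ) = 3 * 3 by norm_num, pow_mul, e3]
    exact m.cube_of_cub cub_zw
  obtain ⟨f1, f2⟩ := m.fix_of_msk chkA
  have hF27 : ∀ n ∈ FA, n < 27 := by decide
  rcases m.two_part I e9 (fun a b c h1 h2 => m.no_tri I e9 e3 h1 h2) hF27 chkFA f1 f2 ht hc with
    h | ⟨n, hn, h⟩ | ⟨n, hn, k, hk, hnk, hcm, h⟩
  · rw [h, one_mul]
    exact m.isC_of_crt cyA
  · rw [h]
    simp only [FA, List.mem_cons, List.not_mem_nil, or_false] at hn
    rcases hn with rfl | rfl | rfl | rfl | rfl | rfl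
    · exact m.isC_tw (by norm_num) (by decide) (m.isC_of_crt cyA_2)
    · exact m.isC_tw (by norm_num) (by decide) (m.isC_of_crt cyA_5)
    · exact m.isC_tw (by norm_num) (by decide) (m.isC_of_crt cyA_8)
    · exact m.isC_tw (by norm_num) (by decide) (m.isC_of_crt cyA_18)
    · exact m.isC_tw (by norm_num) (by decide) (m.isC_of_crt cyA_21)
    · exact m.isC_tw (by norm_num) (by decide) (m.isC_of_crt cyA_24)
  · rw [h]
    have hn27 := hF27 n hn
    have hk27 := hF27 k hk
    have hcn : tp n (pt k) = pt k := by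
      rw [← m.φ_t_tp hn27, m.fix_iff (m.pt_lt' k)]
      exact hcm
    have hb : n / 9 ≠ k / 9 := fun hb => hnk (block hn27 hk27 hcn hb)
    have key : ∀ n ∈ FA, ∀ k ∈ FA, n / 9 < k / 9 → IsC (m.t (pt n) * m.t (pt k) * m.wd wyA) := by
      intro n hn k hk hlt
      simp only [FA, List.mem_cons, List.not_mem_nil, or_false] at hn hk
      rcases hn with rfl | rfl | rfl | rfl | rfl | rfl <;> rcases hk with rfl | rfl | rfl | rfl | rfl | rfl
      all_goals first
        | exact absurd hlt (by decide)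
        | skip
      · exact m.isC_tw2 (by norm_num) (by norm_num) (by decide) (m.isC_of_crt cyA_2_18)
      · exact m.isC_tw2 (by norm_num) (by norm_num) (by decide) (m.isC_of_crt cyA_2_21)
      · exact m.isC_tw2 (by norm_num) (by norm_num) (by decide) (m.isC_of_crt cyA_2_24)
      · exact m.isC_tw2 (by norm_num) (by norm_num) (by decide) (m.isC_of_crt cyA_5_18)
      · exact m.isC_tw2 (by norm_num) (by norm_num) (by decide) (m.isC_of_crt cyA_5_21)
      · exact m.isC_tw2 (by norm_num) (by norm_num) (by decide) (m.isC_of_crt cyA_5_24)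
      · exact m.isC_tw2 (by norm_num) (by norm_num) (by decide) (m.isC_of_crt cyA_8_18)
      · exact m.isC_tw2 (by norm_num) (by norm_num) (by decide) (m.isC_of_crt cyA_8_21)
      · exact m.isC_tw2 (by norm_num) (by norm_num) (by decide) (m.isC_of_crt cyA_8_24)
    rcases lt_or_gt_of_ne hb with h1 | h1
    · exact key n hn k hk h1
    · rw [hcm]
      exact key k hk n hn h1

theorem isC_B (I : Inv G D) {t : G} {e : ℕ} (ht : t ^ 2 ^ e = 1) (hc : m.wd wyB * t = t * m.wd wyB) :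
    IsC (t * m.wd wyB) := by
  have e3 := m.cube_wd chkB3
  have e9 : m.wd wyB ^ 9 = 1 := by
    rw [show (9 : ℕ) = 3 * 3 by norm_num, pow_mul, e3]
    exact m.cube_of_cub cub_zw
  obtain ⟨f1, f2⟩ := m.fix_of_msk chkB
  have hF27 : ∀ n ∈ FB, n < 27 := by decide
  rcases m.two_part I e9 (fun a b c h1 h2 => m.no_tri I e9 e3 h1 h2) hF27 chkFB' f1 f2 ht hc with
    h | ⟨n, hn, h⟩ | ⟨n, hn, k, hk, hnk, hcm, h⟩
  · rw [h, one_mul]
    exact m.isC_of_crt cyB
  · rw [h]
    simp only [FB, List.mem_cons, List.not_mem_nil, or_false] at hn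
    rcases hn with rfl | rfl | rfl
    · exact m.isC_tw (by norm_num) (by decide) (m.isC_of_crt cyB_0)
    · exact m.isC_tw (by norm_num) (by decide) (m.isC_of_crt cyB_3)
    · exact m.isC_tw (by norm_num) (by decide) (m.isC_of_crt cyB_6)
  · exfalso
    have hcn : tp n (pt k) = pt k := by
      rw [← m.φ_t_tp (hF27 n hn), m.fix_iff (m.pt_lt' k)]
      exact hcm
    have hb : n / 9 = k / 9 := by
      have : ∀ n ∈ FB, n / 9 = 0 := by decide
      rw [this n hn, this k hk]
    exact hnk (block (hF27 n hn) (hF27 k hk) hcn hb)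

theorem isC_E (I : Inv G D) {t : G} {e : ℕ} (ht : t ^ 2 ^ e = 1) (hc : m.wd wyE * t = t * m.wd wyE) :
    IsC (t * m.wd wyE) := by
  have e3 : m.wd wyE ^ 3 = m.wd (wyE ++ (wyE ++ wyE)) := by
    rw [wd_append, wd_append, pow_succ, pow_two, mul_assoc]
  have e9 : m.wd wyE ^ 9 = 1 := by
    have h1 := m.cube_of_cub chkE9
    rw [← e3] at h1
    rw [show (9 : ℕ) = 3 * 3 by norm_num, pow_mul, h1]
  have hno : ∀ p < 3510, m.φ (m.wd wyE ^ 3) p ≠ p := by
    intro p hp h
    rw [e3, ← m.testBit_fixm hp, Nat.eq_of_beq_eq_true chkE, Nat.zero_testBit] at h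
    exact Bool.false_ne_true h
  have hnf : ∀ p < 3510, m.φ (m.wd wyE) p = p → ∃ n ∈ ([] : List ℕ), p = pt n := by
    intro p hp h
    exfalso
    refine hno p hp ?_
    rw [pow_succ, pow_two, map_mul, map_mul, Equiv.Perm.mul_apply, Equiv.Perm.mul_apply, h, h, h]
  have htri : ∀ a b c : G, Tri D a b c → m.wd wyE * (a * b * c) = a * b * c * m.wd wyE → False := by
    intro a b c h1 h2
    obtain ⟨ca, -⟩ := m.cube_hex I e9 h1 h2
    obtain ⟨p, hp, rfl⟩ := m.mem_iff.1 h1.mx
    exact hno p hp ((m.comm_iff _ hp).1 ca.eq)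
  rcases m.two_part I e9 htri (F := []) (by simp) rfl hnf (by simp) ht hc with
    h | ⟨n, hn, h⟩ | ⟨n, hn, k, hk, hnk, hcm, h⟩
  · rw [h, one_mul]
    exact m.isC_of_crt cyE
  · simp at hn
  · simp at hn

include m in
/-- **elements whose 3-part has order 9** -/
theorem isC_nine (I : Inv G D) {t y : G} {e n : ℕ} (ht : t ^ 2 ^ e = 1) (hy : y ^ 3 ^ n = 1) (hy3 : y ^ 3 ≠ 1)
    (hc : y * t = t * y) : IsC (t * y) := by
  obtain ⟨-, h | ⟨g, hg⟩⟩ := m.cls_three hy
  · exact absurd h hy3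
  · refine IsC.of_conj g ?_
    have h1 : (g * t * g⁻¹) ^ 2 ^ e = 1 := by rw [conj_pow, ht, mul_one, mul_inv_cancel]
    have h2 : g * (t * y) * g⁻¹ = (g * t * g⁻¹) * (g * y * g⁻¹) := by group
    have h3 : (g * y * g⁻¹) * (g * t * g⁻¹) = (g * t * g⁻¹) * (g * y * g⁻¹) := by
      calc (g * y * g⁻¹) * (g * t * g⁻¹) = g * (y * t) * g⁻¹ := by group
        _ = _ := by rw [hc]; group
    rw [h2]
    rcases hg with hg | hg | hg
    · rw [hg] at h3 ⊢; exact m.isC_A I h1 h3
    · rw [hg] at h3 ⊢; exact m.isC_B I h1 h3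
    · rw [hg] at h3 ⊢; exact m.isC_E I h1 h3

end Cfsg.Agent.H834.Model
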