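import Cfsg.Agent.H3.Ore.Fi22Red

/-!
# `Fi22`: the 3-elements are commutators; the elements of order 9 up to conjugacy (helper3)

* `Model.isC_of_three` : every element of 3-power order is a commutator;
* `Model.nine` : an element of 3-power order has cube `1` or is conjugate to one of three words.
-/

set_option autoImplicit false
set_option maxRecDepth 100000
set_option exponentiation.threshold 5000
set_option linter.style.longLine false
set_option linter.constructorNameAsVariable false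

namespace Cfsg.Agent.H3.Ore.FR

open Cfsg.Spor Cfsg.Spor.Fi22 Cfsg.Agent.Lib.PermNet Cfsg.Agent.Lib.PermNetOrbit Cfsg.Agent.Lib.PermNetFix
open Cfsg.Agent.Fischer Cfsg.Agent.Fischer.Fi22PtsRep
open Cfsg.Agent.H834 Cfsg.Agent.H834.AC Cfsg.Agent.H834.RC
open Cfsg.Agent.H3.Ore.FC
open Matrix

/-- the cube check -/
noncomputable def cub (w : List Gen) : Bool := eqB (w ++ (w ++ w)) []

theorem dr1_0 : cub wr1_0 = true := by decide +kernel
theorem dr1_28 : cub wr1_28 = true := by decide +kernel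
theorem dr1_110 : cub wr1_110 = true := by decide +kernel
theorem dr2_0 : cub wr2_0 = true := by decide +kernel
theorem dr2_1 : cub wr2_1 = true := by decide +kernel
theorem dr2_27 : cub wr2_27 = true := by decide +kernel
theorem dr2_28 : cub wr2_28 = true := by decide +kernel
theorem dr2_54 : cub wr2_54 = true := by decide +kernel
theorem dr2_55 : cub wr2_55 = true := by decide +kernel
theorem dr4_0 : cub wr4_0 = true := by decide +kernel
theorem dr4_1 : cub wr4_1 = true := by decide +kernel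
theorem dr4_10 : cub wr4_10 = true := by decide +kernel
theorem dr4_20 : cub wr4_20 = true := by decide +kernel

theorem er1_0 : kwl (dig 0) ++ rho 1 = wr1_0 := by decide
theorem er1_28 : kwl (dig 28) ++ rho 1 = wr1_28 := by decide
theorem er1_110 : kwl (dig 110) ++ rho 1 = wr1_110 := by decide
theorem er2_0 : kwl (dig 0) ++ rho 2 = wr2_0 := by decide
theorem er2_1 : kwl (dig 1) ++ rho 2 = wr2_1 := by decide
theorem er2_27 : kwl (dig 27) ++ rho 2 = wr2_27 := by decide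
theorem er2_28 : kwl (dig 28) ++ rho 2 = wr2_28 := by decide
theorem er2_54 : kwl (dig 54) ++ rho 2 = wr2_54 := by decide
theorem er2_55 : kwl (dig 55) ++ rho 2 = wr2_55 := by decide
theorem er4_0 : kwl (dig 0) ++ rho 4 = wr4_0 := by decide
theorem er4_1 : kwl (dig 1) ++ rho 4 = wr4_1 := by decide
theorem er4_10 : kwl (dig 10) ++ rho 4 = wr4_10 := by decide
theorem er4_20 : kwl (dig 20) ++ rho 4 = wr4_20 := by decide
theorem eyA : [.d, .h, .i, .e, .d, .h, .c, .d, .e] ++ ((kwl (dig 1) ++ rho 1) ++ ([.d, .h, .i, .e, .d, .h, .c, .d, .e] : List Gen).reverse) = wyA := by decide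
theorem eyB : kwl (dig 9) ++ rho 2 = wyB := by decide
theorem eyE : kwl (dig 2) ++ rho 3 = wyE := by decide
theorem ek1 : kwl [1, 0, 0, 0, 0] = wk1 := by decide
theorem ek2 : kwl [1, 0, 0, 1, 0] = wk2 := by decide
theorem ek0 : kwl [1, 0, 0, 1, 1] = wk0 := by decide
theorem cj0 : cnj [.a, .b, .f, .e, .g, .c, .a, .e, .d, .h, .e, .d, .b, .g, .c, .d, .g, .a, .b, .h, .c, .d, .e, .g, .b, .d, .c, .f, .b, .h, .c, .a, .i, .d, .c, .b, .c, .h, .a, .f, .b, .c, .f, .a, .d, .b, .e, .c, .h, .a, .g, .d, .e, .h, .c, .b, .a, .d, .h, .i, .c, .d, .b, .h, .c, .g, .f, .i, .f, .h, .e, .d, .e, .f, .h, .i] (kwl (dig 0) ++ rho 3) wyB = true := by decide +kernel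
theorem cj1 : cnj [.g, .f, .a, .g, .e, .d, .f, .e, .f, .c, .d, .e, .h, .d, .c, .a, .b, .f, .h, .e, .d, .e, .f, .h, .i, .c, .g, .d, .e, .h, .d, .e, .c, .d, .e, .d, .e, .h, .d, .f, .h, .e, .d, .e, .f, .h, .g] (kwl (dig 1) ++ rho 3) wyB = true := by decide +kernel

theorem chkWB_spec : ∀ (l : List (List Gen × ℕ)) (n : ℕ), chkWB l n = true → ∀ k < l.length,
    ∃ (w : List Gen) (j : ℕ), w.all ok7 = true ∧ j < 5 ∧ cnj w (yword (n + k)) (rho j) = true := by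
  intro l
  induction l with
  | nil => intro n _ k hk; exact absurd hk (by simp)
  | cons x l ih =>
    intro n h k hk
    have h' : and (and (cnj x.1 (yword n) (rho x.2)) (and (x.1.all ok7) (Nat.blt x.2 5))) (chkWB l (n + 1)) = true := h
    rw [Bool.and_eq_true, Bool.and_eq_true, Bool.and_eq_true] at h'
    cases k with
    | zero => exact ⟨x.1, x.2, h'.1.2.1, Nat.le_of_ble_eq_true h'.1.2.2, h'.1.1⟩
    | succ k =>
      have h2 := ih (n + 1) h'.2 k (by simpa using hk)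
      have e : n + (k + 1) = n + 1 + k := by omega
      rw [e]
      exact h2

theorem exists_wl {n : ℕ} (hn : n < 81) : ∃ (w : List Gen) (j : ℕ), w.all ok7 = true ∧ j < 5 ∧
    cnj w (yword n) (rho j) = true := by
  have key : ∀ (l : List (List Gen × ℕ)) (s : ℕ), chkWB l s = true → l.length = 9 → s ≤ n → n < s + 9 →
      ∃ (w : List Gen) (j : ℕ), w.all ok7 = true ∧ j < 5 ∧ cnj w (yword n) (rho j) = true := by
    intro l s h hl h1 h2
    have := chkWB_spec l s h (n - s) (by omega)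
    rwa [Nat.add_sub_cancel' h1] at this
  rcases Nat.lt_or_ge n 9 with h | h
  · exact key wl0 0 chkW0 rfl (by omega) (by omega)
  rcases Nat.lt_or_ge n 18 with h | h
  · exact key wl1 9 chkW1 rfl (by omega) (by omega)
  rcases Nat.lt_or_ge n 27 with h | h
  · exact key wl2 18 chkW2 rfl (by omega) (by omega)
  rcases Nat.lt_or_ge n 36 with h | h
  · exact key wl3 27 chkW3 rfl (by omega) (by omega)
  rcases Nat.lt_or_ge n 45 with h | h
  · exact key wl4 36 chkW4 rfl (by omega) (by omega)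
  rcases Nat.lt_or_ge n 54 with h | h
  · exact key wl5 45 chkW5 rfl (by omega) (by omega)
  rcases Nat.lt_or_ge n 63 with h | h
  · exact key wl6 54 chkW6 rfl (by omega) (by omega)
  rcases Nat.lt_or_ge n 72 with h | h
  · exact key wl7 63 chkW7 rfl (by omega) (by omega)
  · exact key wl8 72 chkW8 rfl (by omega) (by omega)

theorem ok7_iff (g : Gen) : ok7 g = true ↔ g ∈ gs := by cases g <;> decide

end Cfsg.Agent.H3.Ore.FR

namespace Cfsg.Agent.H834.Model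

open Cfsg.Spor Cfsg.Spor.Fi22 Cfsg.Agent.Lib.PermNet Cfsg.Agent.Lib.PermNetOrbit Cfsg.Agent.Lib.PermNetFix
open Cfsg.Agent.Fischer Cfsg.Agent.Fischer.Fi22PtsRep
open Cfsg.Agent.H834 Cfsg.Agent.H834.AC Cfsg.Agent.H834.RC
open Cfsg.Agent.H3.Ore.FC Cfsg.Agent.H3.Ore.FR
open Cfsg.Agent.H777.Ore (IsC)
open Matrix

variable {G : Type*} [Group G] {D : Set G} (m : Model G D)

theorem isC_of_crt {y g a b : List Gen} (h : crt y g a b = true) : IsC (m.wd y) := by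
  have h1 := m.eq_of_eqB h
  simp only [wd_append, wd_reverse] at h1
  refine IsC.of_conj (m.wd g) ⟨m.wd a, m.wd b, ?_⟩
  rw [mul_assoc, h1]
  simp only [mul_assoc]

theorem conj_of_cnj {g y c : List Gen} (h : cnj g y c = true) : m.wd g * m.wd y * (m.wd g)⁻¹ = m.wd c := by
  have h1 := m.eq_of_eqB h
  simp only [wd_append, wd_reverse] at h1
  rw [mul_assoc, h1]

theorem act1 {g : Gen} (hg : g ∈ gs) {n : ℕ} (hn : n < 243) :
    m.wd [g] * m.κ (vec n) * (m.wd [g])⁻¹ = m.κ (vec (ap1 g n)) := by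
  have h := m.act_gen (g := g) hg (vec n)
  have h0 : ∀ g ∈ gs, qf (root g) = 1 := by decide
  rw [h, Cfsg.Agent.ClassicalGeometry.Reflection.reflectionMatrix_mulVec, polar_Qd, Qd_apply, h0 g hg, inv_one, one_mul]
  have h1 := chk_ap
  rw [List.all_eq_true] at h1
  have h2 := h1 g hg
  rw [List.all_eq_true] at h2
  have h3 := of_decide_eq_true (h2 n (List.mem_range.2 hn))
  rw [h3]

theorem act_word {w : List Gen} (hw : w.all ok7 = true) {n : ℕ} (hn : n < 243) :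
    apw w n < 243 ∧ m.wd w * m.κ (vec n) * (m.wd w)⁻¹ = m.κ (vec (apw w n)) := by
  induction w with
  | nil => exact ⟨hn, by rw [wd_nil]; simp [apw]⟩
  | cons g w ih =>
    rw [List.all_cons, Bool.and_eq_true] at hw
    obtain ⟨h1, h2⟩ := ih hw.2
    refine ⟨ap1_lt _ _, ?_⟩
    have e : apw (g :: w) n = ap1 g (apw w n) := rfl
    rw [e, ← m.act1 ((ok7_iff g).1 hw.1) h1, ← h2, wd_cons]
    group

theorem step3 {r c : List Gen} (hr : r.all ok7 = true) (hc : c.all ok7 = true)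
    (hcr : eqB (c ++ r) (r ++ c) = true) {n x : ℕ} (hn : n < 243) (hx : x < 243) :
    (m.κ (vec x) * m.wd c) * (m.κ (vec n) * m.wd r) * (m.κ (vec x) * m.wd c)⁻¹ =
      m.κ (vec (addN (addN x (apw c n)) (negN (apw r x)))) * m.wd r := by
  obtain ⟨-, h1⟩ := m.act_word hc hn
  obtain ⟨-, h2⟩ := m.act_word hr hx
  have h3 := m.eq_of_eqB hcr
  simp only [wd_append] at h3
  rw [vec_addN, vec_addN, vec_negN, κ_add, κ_add, κ_neg, ← h1, ← h2]
  calc (m.κ (vec x) * m.wd c) * (m.κ (vec n) * m.wd r) * (m.κ (vec x) * m.wd c)⁻¹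
      = m.κ (vec x) * (m.wd c * m.κ (vec n) * (m.wd c)⁻¹) * (m.wd c * m.wd r) * (m.wd c)⁻¹ * (m.κ (vec x))⁻¹ := by group
    _ = m.κ (vec x) * (m.wd c * m.κ (vec n) * (m.wd c)⁻¹) * (m.wd r * m.wd c) * (m.wd c)⁻¹ * (m.κ (vec x))⁻¹ := by rw [h3]
    _ = _ := by group

theorem red_j {cl : List (List Gen)} {sl rl : List ℕ} {r : List Gen} (h : chkJ cl sl rl r = true) {n : ℕ} (hn : n < 243) :
    ∃ g : G, ∃ k ∈ rl, g * (m.κ (vec n) * m.wd r) * g⁻¹ = m.κ (vec k) * m.wd r := by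
  unfold chkJ at h
  rw [Bool.and_eq_true, Bool.and_eq_true] at h
  obtain ⟨h1, h2, h3⟩ := h
  rw [List.all_eq_true] at h1 h3
  have h4 := h1 n (List.mem_range.2 hn)
  unfold chk1 at h4
  rw [List.elem_iff] at h4
  set s := sl.getD n 0 with hs
  have hx : s % 243 < 243 := Nat.mod_lt _ (by norm_num)
  by_cases hc : cl.getD (s / 243) [] ∈ cl
  · have h5 := h3 _ hc
    rw [Bool.and_eq_true] at h5
    exact ⟨_, _, h4, m.step3 h2 h5.1 h5.2 hn hx⟩
  · have hc' : cl.getD (s / 243) [] = [] := by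
      by_contra hne
      apply hc
      by_cases hlt : s / 243 < cl.length
      · rw [List.getD_eq_getElem _ _ hlt]
        exact List.getElem_mem hlt
      · exact absurd (List.getD_eq_default _ _ (not_lt.1 hlt)) hne
    rw [hc'] at h4
    refine ⟨_, _, h4, m.step3 (c := []) h2 rfl ?_ hn hx⟩
    unfold eqB eqL
    simp

/-- **Reduction in `P0`.** -/
theorem red_P0 {y : G} (hy : y ∈ m.P0) : ∃ g : G, g * y * g⁻¹ = 1 ∨ g * y * g⁻¹ = m.wd wk1 ∨ g * y * g⁻¹ = m.wd wk2 ∨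
    g * y * g⁻¹ = m.wd wk0 ∨ (∃ k ∈ rl1, g * y * g⁻¹ = m.wd (kwl (dig k) ++ rho 1)) ∨
    (∃ k ∈ rl2, g * y * g⁻¹ = m.wd (kwl (dig k) ++ rho 2)) ∨ (∃ k ∈ rl3, g * y * g⁻¹ = m.wd (kwl (dig k) ++ rho 3)) ∨
    (∃ k ∈ rl4, g * y * g⁻¹ = m.wd (kwl (dig k) ++ rho 4)) := by
  obtain ⟨v, n, hn, rfl⟩ := hy
  obtain ⟨w, j, hw, hj, hwj⟩ := exists_wl hn
  obtain ⟨a, ha, rfl⟩ := exists_vec v
  have h1 : m.wd w * m.ψ n * (m.wd w)⁻¹ = m.wd (rho j) := m.conj_of_cnj hwj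
  obtain ⟨h2, h3⟩ := m.act_word hw ha
  set b := apw w a
  have h4 : m.wd w * (m.κ (vec a) * m.ψ n) * (m.wd w)⁻¹ = m.κ (vec b) * m.wd (rho j) := by
    rw [← h1, ← h3]; group
  have key : ∀ k, m.wd (kwl (dig k) ++ rho j) = m.κ (vec k) * m.wd (rho j) := by
    intro k
    rw [wd_append, κ_word]; rfl
  have fin : ∀ {cl : List (List Gen)} {sl rl : List ℕ}, chkJ cl sl rl (rho j) = true →
      ∃ g : G, ∃ k ∈ rl, g * (m.κ (vec a) * m.ψ n) * g⁻¹ = m.wd (kwl (dig k) ++ rho j) := by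
    intro cl sl rl h
    obtain ⟨g, k, hk, hg⟩ := m.red_j h h2
    refine ⟨g * m.wd w, k, hk, ?_⟩
    rw [key, ← hg, ← h4]
    group
  interval_cases j
  · have h5 : m.wd (rho 0) = 1 := m.wd_nil
    rw [h5, mul_one] at h4
    by_cases hb : vec b = 0
    · refine ⟨m.wd w, Or.inl ?_⟩
      rw [h4, hb, κ_zero]
    · obtain ⟨r, -, hr⟩ := m.trich hb
      have e1 : m.wd wk1 = m.κ w1 := by rw [← ek1, κ_word, lv_w1]
      have e2 : m.wd wk2 = m.κ w2 := by rw [← ek2, κ_word, lv_w2]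
      have e0 : m.wd wk0 = m.κ w0 := by rw [← ek0, κ_word, lv_w0]
      refine ⟨r⁻¹ * m.wd w, ?_⟩
      have h6 : r⁻¹ * m.wd w * (m.κ (vec a) * m.ψ n) * (r⁻¹ * m.wd w)⁻¹ = r⁻¹ * m.κ (vec b) * r := by
        rw [← h4]; group
      rw [h6, e1, e2, e0]
      rcases hr with hr | hr | hr
      · right; left; rw [← hr]; group
      · right; right; left; rw [← hr]; group
      · right; right; right; left; rw [← hr]; group
  · obtain ⟨g, k, hk, hg⟩ := fin chkJ1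
    exact ⟨g, Or.inr (Or.inr (Or.inr (Or.inr (Or.inl ⟨k, hk, hg⟩))))⟩
  · obtain ⟨g, k, hk, hg⟩ := fin chkJ2
    exact ⟨g, Or.inr (Or.inr (Or.inr (Or.inr (Or.inr (Or.inl ⟨k, hk, hg⟩)))))⟩
  · obtain ⟨g, k, hk, hg⟩ := fin chkJ3
    exact ⟨g, Or.inr (Or.inr (Or.inr (Or.inr (Or.inr (Or.inr (Or.inl ⟨k, hk, hg⟩))))))⟩
  · obtain ⟨g, k, hk, hg⟩ := fin chkJ4
    exact ⟨g, Or.inr (Or.inr (Or.inr (Or.inr (Or.inr (Or.inr (Or.inr ⟨k, hk, hg⟩))))))⟩

theorem cube_of_cub {w : List Gen} (h : cub w = true) : m.wd w ^ 3 = 1 := by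
  have h1 := m.eq_of_eqB h
  rw [wd_append, wd_append, wd_nil] at h1
  rw [pow_succ, pow_two, mul_assoc, h1]

/-- **the elements of `P0`** : commutators; of cube `1` or conjugate to `yA`, `yB`, `yE` -/
theorem cls_P0 {y : G} (hy : y ∈ m.P0) : IsC y ∧ (y ^ 3 = 1 ∨
    ∃ g : G, g * y * g⁻¹ = m.wd wyA ∨ g * y * g⁻¹ = m.wd wyB ∨ g * y * g⁻¹ = m.wd wyE) := by
  obtain ⟨g, hg⟩ := m.red_P0 hy
  have c3 : ∀ w : List Gen, cub w = true → g * y * g⁻¹ = m.wd w → y ^ 3 = 1 := by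
    intro w hw h
    have h1 := m.cube_of_cub hw
    rw [← h, conj_pow] at h1
    exact conj_eq_one_iff.1 h1
  have hc : ∀ w : List Gen, IsC (m.wd w) → g * y * g⁻¹ = m.wd w → IsC y := by
    intro w hw h
    rw [← h] at hw
    exact IsC.of_conj g hw
  have nk : ∀ l : List ℕ, m.wd (kwl l) ^ 3 = 1 := by
    intro l
    rw [κ_word]
    exact m.elemA.2 _ (m.κ_mem _)
  have ck : ∀ w : List Gen, m.wd w ^ 3 = 1 → g * y * g⁻¹ = m.wd w → y ^ 3 = 1 := by
    intro w h1 h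
    rw [← h, conj_pow] at h1
    exact conj_eq_one_iff.1 h1
  rcases hg with h | h | h | h | ⟨k, hk, h⟩ | ⟨k, hk, h⟩ | ⟨k, hk, h⟩ | ⟨k, hk, h⟩
  · have h1 : y = 1 := conj_eq_one_iff.1 h
    subst h1
    exact ⟨Cfsg.Agent.H777.Ore.isC_one, Or.inl (one_pow 3)⟩
  · exact ⟨hc _ (m.isC_of_crt ck1) h, Or.inl (ck _ (ek1 ▸ nk _) h)⟩
  · exact ⟨hc _ (m.isC_of_crt ck2) h, Or.inl (ck _ (ek2 ▸ nk _) h)⟩
  · exact ⟨hc _ (m.isC_of_crt ck0) h, Or.inl (ck _ (ek0 ▸ nk _) h)⟩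
  · simp only [rl1, List.mem_cons, List.not_mem_nil, or_false] at hk
    rcases hk with rfl | rfl | rfl | rfl
    · rw [er1_0] at h; exact ⟨hc _ (m.isC_of_crt cr1_0) h, Or.inl (c3 _ dr1_0 h)⟩
    · have h1 : m.wd [.d, .h, .i, .e, .d, .h, .c, .d, .e] * m.wd (kwl (dig 1) ++ rho 1) *
          (m.wd [.d, .h, .i, .e, .d, .h, .c, .d, .e])⁻¹ = m.wd wyA := by
        rw [← eyA]
        simp only [wd_append, wd_reverse, mul_assoc]
      have h2 : (m.wd [.d, .h, .i, .e, .d, .h, .c, .d, .e] * g) * y *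
          (m.wd [.d, .h, .i, .e, .d, .h, .c, .d, .e] * g)⁻¹ = m.wd wyA := by
        rw [← h1, ← h]; group
      refine ⟨?_, Or.inr ⟨_, Or.inl h2⟩⟩
      have h3 := m.isC_of_crt cyA
      rw [← h2] at h3
      exact IsC.of_conj _ h3
    · rw [er1_28] at h; exact ⟨hc _ (m.isC_of_crt cr1_28) h, Or.inl (c3 _ dr1_28 h)⟩
    · rw [er1_110] at h; exact ⟨hc _ (m.isC_of_crt cr1_110) h, Or.inl (c3 _ dr1_110 h)⟩
  · simp only [rl2, List.mem_cons, List.not_mem_nil, or_false] at hk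
    rcases hk with rfl | rfl | rfl | rfl | rfl | rfl | rfl
    · rw [er2_0] at h; exact ⟨hc _ (m.isC_of_crt cr2_0) h, Or.inl (c3 _ dr2_0 h)⟩
    · rw [er2_1] at h; exact ⟨hc _ (m.isC_of_crt cr2_1) h, Or.inl (c3 _ dr2_1 h)⟩
    · rw [eyB] at h
      exact ⟨hc _ (m.isC_of_crt cyB) h, Or.inr ⟨g, Or.inr (Or.inl h)⟩⟩
    · rw [er2_27] at h; exact ⟨hc _ (m.isC_of_crt cr2_27) h, Or.inl (c3 _ dr2_27 h)⟩
    · rw [er2_28] at h; exact ⟨hc _ (m.isC_of_crt cr2_28) h, Or.inl (c3 _ dr2_28 h)⟩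
    · rw [er2_54] at h; exact ⟨hc _ (m.isC_of_crt cr2_54) h, Or.inl (c3 _ dr2_54 h)⟩
    · rw [er2_55] at h; exact ⟨hc _ (m.isC_of_crt cr2_55) h, Or.inl (c3 _ dr2_55 h)⟩
  · have hb : ∀ u : G, u * m.wd (kwl (dig k) ++ rho 3) * u⁻¹ = m.wd wyB → IsC y ∧ (y ^ 3 = 1 ∨
        ∃ g : G, g * y * g⁻¹ = m.wd wyA ∨ g * y * g⁻¹ = m.wd wyB ∨ g * y * g⁻¹ = m.wd wyE) := by
      intro u hu
      have h2 : (u * g) * y * (u * g)⁻¹ = m.wd wyB := by
        rw [← hu, ← h]; group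
      refine ⟨?_, Or.inr ⟨_, Or.inr (Or.inl h2)⟩⟩
      have h3 := m.isC_of_crt cyB
      rw [← h2] at h3
      exact IsC.of_conj _ h3
    simp only [rl3, List.mem_cons, List.not_mem_nil, or_false] at hk
    rcases hk with rfl | rfl | rfl
    · exact hb _ (m.conj_of_cnj cj0)
    · exact hb _ (m.conj_of_cnj cj1)
    · rw [eyE] at h
      exact ⟨hc _ (m.isC_of_crt cyE) h, Or.inr ⟨g, Or.inr (Or.inr h)⟩⟩
  · simp only [rl4, List.mem_cons, List.not_mem_nil, or_false] at hk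
    rcases hk with rfl | rfl | rfl | rfl
    · rw [er4_0] at h; exact ⟨hc _ (m.isC_of_crt cr4_0) h, Or.inl (c3 _ dr4_0 h)⟩
    · rw [er4_1] at h; exact ⟨hc _ (m.isC_of_crt cr4_1) h, Or.inl (c3 _ dr4_1 h)⟩
    · rw [er4_10] at h; exact ⟨hc _ (m.isC_of_crt cr4_10) h, Or.inl (c3 _ dr4_10 h)⟩
    · rw [er4_20] at h; exact ⟨hc _ (m.isC_of_crt cr4_20) h, Or.inl (c3 _ dr4_20 h)⟩

/-- **the elements of 3-power order** -/
theorem cls_three {y : G} {n : ℕ} (hy : y ^ 3 ^ n = 1) : IsC y ∧ (y ^ 3 = 1 ∨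
    ∃ g : G, g * y * g⁻¹ = m.wd wyA ∨ g * y * g⁻¹ = m.wd wyB ∨ g * y * g⁻¹ = m.wd wyE) := by
  have hfin := m.finite
  have h3 : Fact (Nat.Prime 3) := ⟨Nat.prime_three⟩
  obtain ⟨Q, hQ⟩ := m.isPGroup_P0.exists_le_sylow
  have h1 := m.isSylow_P0 hQ
  have hp : IsPGroup 3 ↥(Subgroup.zpowers y) := by
    obtain ⟨k, -, hk⟩ := (Nat.dvd_prime_pow Nat.prime_three).1 (orderOf_dvd_of_pow_eq_one hy)
    exact IsPGroup.of_card (n := k) (by rw [Nat.card_zpowers, hk])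
  obtain ⟨P, hP⟩ := hp.exists_le_sylow
  obtain ⟨g, hg⟩ := MulAction.exists_smul_eq G P Q
  have hmem : g * y * g⁻¹ ∈ m.P0 := by
    rw [← h1, ← hg, Sylow.coe_subgroup_smul]
    exact ⟨y, hP (Subgroup.mem_zpowers y), rfl⟩
  obtain ⟨h4, h5⟩ := m.cls_P0 hmem
  refine ⟨IsC.of_conj g h4, ?_⟩
  rcases h5 with h5 | ⟨u, hu⟩
  · left
    rw [conj_pow] at h5
    exact conj_eq_one_iff.1 h5
  · right
    refine ⟨u * g, ?_⟩
    have e : u * g * y * (u * g)⁻¹ = u * (g * y * g⁻¹) * u⁻¹ := by group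
    rw [e]
    exact hu

end Cfsg.Agent.H834.Model
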